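import Cfsg.Agent.H7.Mult3
import Cfsg.Agent.H7.PG
import Cfsg.Agent.H7.Li.G24x

set_option autoImplicit false
set_option maxRecDepth 100000

universe u

open scoped Pointwise

namespace CfsgH7.G24.Sp

open CfsgH7.G24

def Ms : List (List (List Nat)) := [[[0,1,2,3,2,1],[0,0,0,1,2,2],[1,2,1,0,1,2],[0,3,1,0,2,1],[2,2,1,0,2,2],[3,2,2,3,1,2]],
  [[2,2,1,2,2,1],[1,2,2,1,2,2],[3,0,0,0,1,3],[2,1,1,1,0,2],[2,2,3,2,0,1],[3,2,0,1,0,0]],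
  [[0,0,1,1,2,0],[2,2,2,1,2,0],[0,0,0,0,3,3],[2,0,1,1,1,3],[0,0,2,2,0,0],[3,3,2,2,3,3]],
  [[3,0,3,3,0,0],[3,0,1,3,2,2],[2,2,1,0,1,1],[2,2,1,0,2,1],[3,0,0,0,2,0],[3,0,2,0,2,0]],
  [[0,2,3,0,2,0],[1,2,2,2,1,2],[1,2,2,0,2,0],[0,1,1,2,2,3],[0,1,1,2,2,2],[0,0,0,1,1,0]],
  [[0,2,3,0,2,0],[1,2,2,2,1,2],[1,2,2,0,2,0],[0,1,1,2,2,3],[0,1,1,2,2,2],[0,0,0,1,1,0]],
  [[0,0,0,0,2,2],[0,0,1,1,0,2],[0,0,2,2,1,0],[3,3,3,2,1,0],[1,1,3,0,0,0],[2,1,3,0,0,0]],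
  [[0,0,0,0,2,2],[0,0,1,1,0,2],[0,0,2,2,1,0],[3,3,3,2,1,0],[1,1,3,0,0,0],[2,1,3,0,0,0]],
  [[3,3,2,1,0,0],[3,2,1,0,1,0],[2,2,1,0,0,1],[1,3,2,0,1,2],[0,0,3,2,3,3],[1,0,1,2,3,2]],
  [[1,1,2,3,2,1],[0,1,0,1,2,2],[1,2,0,0,1,2],[0,3,1,1,2,1],[2,2,1,0,3,2],[3,2,2,3,1,3]],
  [[3,3,0,2,1,2],[2,0,0,3,3,2],[0,0,2,2,2,3],[3,1,3,0,2,0],[0,0,2,2,1,0],[3,3,3,1,0,3]],
  [[0,0,3,3,2,1],[2,1,3,0,2,2],[0,3,0,1,0,3],[0,3,0,1,3,3],[1,0,3,3,0,0],[3,1,0,0,2,1]],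
  [[2,3,0,2,1,2],[2,1,0,3,3,2],[0,0,3,2,2,3],[3,1,3,1,2,0],[0,0,2,2,0,0],[3,3,3,1,0,2]]]
theorem hM : (arQ 2 1 1).mOk 6 Ms = true := by decide +kernel
theorem pg {X : Type u} [Group X] (hX : Mdl X 4 Rf 251596800) (N : Nat) : ∃ (H : Type) (_ : Group H) (_ : Finite H), N < Nat.card H ∧
      (∀ p : ℕ, p.Prime → (p ∣ Nat.card X ↔ p ∣ Nat.card H)) ∧ ∀ p q : ℕ, p.Prime → q.Prime → p ≠ q →
        ((∃ g : X, orderOf g = p * q) ↔ ∃ x : H, orderOf x = p * q) := by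
  obtain ⟨F, _, _, hF⟩ := gf4
  obtain ⟨hc, θ, K⟩ := fld4 hF
  have I := ixFin 6
  have := M0.fin
  obtain ⟨ρ, mo⟩ := M0.mrep pr (M0.sat sb0) K I hM (by decide +kernel) (by decide +kernel)
  obtain ⟨e⟩ := iso hX
  refine pg_same Nat.prime_two (Mo.ex ρ 2) (by rw [M0.card]; norm_num) (fun g h1 h2 => ?_) e N
  have h3 := prime_mem (e := 12) (ps := [2, 3, 5, 7, 13]) h1 (by norm_num) ((M0.card ▸ orderOf_dvd_natCard g).trans (by norm_num))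
  simp only [List.mem_cons, List.not_mem_nil, or_false] at h3
  rcases h3 with h | h | h | h | h
  · exact .inl h
  · exact .inr (by rw [h]; exact ⟨_, M0.ordN [6,0,4,0,4,6] (by decide +kernel)⟩)
  · exact .inr (by rw [h]; exact ⟨_, M0.ordN [6,4] (by decide +kernel)⟩)
  · exact absurd h2 (fpf_cyc (by norm_num) (by rw [M0.card]; norm_num) (M0.ordN _ (by decide +kernel)) (K.fpf I hM mo [0] 0 8 9 (by decide +kernel)) h)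
  · exact absurd h2 (fpf_cyc (by norm_num) (by rw [M0.card]; norm_num) (M0.ordN _ (by decide +kernel)) (K.fpf I hM mo [3,6,0,0] 10 11 12 (by decide +kernel)) h)

end CfsgH7.G24.Sp

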