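import Cfsg.Agent.H7.Mult3
import Cfsg.Agent.H7.PG
import Cfsg.Agent.H7.Li.U34

set_option autoImplicit false
set_option maxRecDepth 100000

universe u

open scoped Pointwise

namespace CfsgH7.U34.Sp

open CfsgH7.U34

def Ms : List (List (List Nat)) := [[[4,1,1,2,2,0,4,4,4,3,4,2],[1,2,4,3,3,0,4,2,0,4,4,1],[3,0,2,1,2,1,2,1,4,0,2,0],[4,1,0,2,0,2,2,4,3,1,1,0],[3,4,0,1,4,2,2,4,3,0,1,1],[3,2,4,1,2,3,0,3,0,1,3,0],[4,2,3,0,1,1,0,1,1,0,0,0],[3,0,0,0,3,4,3,3,2,2,3,2],[3,0,4,2,3,4,1,2,1,0,4,1],[1,1,0,1,2,3,4,4,0,0,3,2],[1,3,2,0,2,0,0,0,4,4,1,3],[1,1,3,0,4,2,4,2,4,4,0,0]],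
  [[1,1,1,1,0,4,2,0,4,0,1,1],[2,0,1,4,2,4,2,3,2,2,4,1],[4,2,1,4,4,0,3,1,2,4,3,3],[3,0,3,1,0,0,4,3,4,2,0,1],[4,2,3,2,0,1,4,2,0,3,0,2],[4,3,4,1,0,1,3,4,3,0,1,3],[4,0,4,4,3,1,4,1,0,1,0,4],[3,2,4,1,1,3,4,0,3,2,3,3],[4,3,0,2,3,1,4,0,3,4,0,2],[2,2,4,3,0,3,0,1,1,0,2,4],[1,1,3,3,4,3,0,0,1,2,1,2],[4,0,3,4,0,1,4,2,3,4,1,0]],
  [[4,4,4,4,1,3,1,2,1,4,1,3],[0,0,0,3,4,0,1,2,4,2,0,1],[0,1,2,0,4,4,3,3,4,2,1,1],[1,4,2,3,1,2,1,4,1,4,1,2],[3,2,3,3,2,0,4,4,3,0,1,3],[4,4,3,1,1,3,3,3,1,3,2,0],[4,1,0,3,4,3,0,4,4,0,0,4],[3,4,2,4,1,1,1,4,1,3,1,1],[0,3,3,3,2,1,2,4,1,3,2,1],[0,2,4,0,3,0,1,0,3,1,2,4],[1,2,4,2,3,4,3,0,3,1,2,4],[0,1,3,1,4,0,4,4,4,3,4,4]],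
  [[4,4,4,4,1,3,1,2,1,4,1,3],[0,0,0,3,4,0,1,2,4,2,0,1],[0,1,2,0,4,4,3,3,4,2,1,1],[1,4,2,3,1,2,1,4,1,4,1,2],[3,2,3,3,2,0,4,4,3,0,1,3],[4,4,3,1,1,3,3,3,1,3,2,0],[4,1,0,3,4,3,0,4,4,0,0,4],[3,4,2,4,1,1,1,4,1,3,1,1],[0,3,3,3,2,1,2,4,1,3,2,1],[0,2,4,0,3,0,1,0,3,1,2,4],[1,2,4,2,3,4,3,0,3,1,2,4],[0,1,3,1,4,0,4,4,4,3,4,4]],
  [[0,2,0,1,0,1,1,2,0,4,4,0],[1,3,0,1,1,4,4,2,1,3,2,0],[4,1,4,0,1,4,2,0,2,2,2,4],[1,0,0,0,4,1,2,2,3,3,4,2],[4,4,0,0,4,2,2,0,4,4,0,3],[2,0,0,2,3,1,4,4,1,1,3,4],[4,4,0,3,1,4,3,1,2,2,0,2],[1,0,0,0,2,1,0,4,4,1,3,0],[3,0,0,0,1,2,2,0,3,2,3,1],[3,0,0,2,0,3,4,4,0,1,1,4],[2,0,0,0,4,3,3,0,1,3,1,4],[3,2,0,3,3,4,3,1,4,1,3,2]],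
  [[0,2,0,1,0,1,1,2,0,4,4,0],[1,3,0,1,1,4,4,2,1,3,2,0],[4,1,4,0,1,4,2,0,2,2,2,4],[1,0,0,0,4,1,2,2,3,3,4,2],[4,4,0,0,4,2,2,0,4,4,0,3],[2,0,0,2,3,1,4,4,1,1,3,4],[4,4,0,3,1,4,3,1,2,2,0,2],[1,0,0,0,2,1,0,4,4,1,3,0],[3,0,0,0,1,2,2,0,3,2,3,1],[3,0,0,2,0,3,4,4,0,1,1,4],[2,0,0,0,4,3,3,0,1,3,1,4],[3,2,0,3,3,4,3,1,4,1,3,2]],
  [[2,3,0,4,1,2,4,1,3,0,0,4],[3,1,4,2,1,0,0,4,0,1,2,4],[3,3,4,3,0,3,4,2,0,2,2,4],[1,1,2,2,0,4,0,2,0,3,3,0],[2,3,2,4,0,2,3,2,3,4,2,2],[3,2,2,1,2,0,1,4,4,1,2,3],[4,4,3,2,3,1,1,3,1,2,3,4],[0,0,3,3,0,4,2,0,0,4,4,2],[1,4,3,3,0,1,4,2,3,3,1,0],[3,3,3,2,2,0,3,4,0,0,4,3],[0,4,1,2,0,2,0,3,2,1,3,2],[2,3,1,3,3,4,4,3,0,4,4,3]],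
  [[4,0,3,0,1,4,0,2,3,1,4,4],[4,4,3,3,4,1,3,1,4,3,3,3],[4,3,4,2,2,1,2,1,0,4,3,3],[3,3,1,2,0,2,3,1,1,4,4,1],[4,0,0,1,0,0,3,1,1,2,4,3],[0,2,3,4,4,4,4,1,2,3,2,2],[2,1,3,1,1,2,2,3,2,4,1,0],[3,3,3,0,2,3,3,0,0,2,0,4],[4,1,0,2,1,4,3,2,4,0,2,3],[1,3,0,1,3,2,4,3,4,2,4,3],[4,3,4,1,4,1,2,2,4,4,1,2],[4,3,2,1,0,1,2,0,4,2,2,2]],
  [[1,3,0,4,1,2,4,1,3,0,0,4],[3,0,4,2,1,0,0,4,0,1,2,4],[3,3,3,3,0,3,4,2,0,2,2,4],[1,1,2,1,0,4,0,2,0,3,3,0],[2,3,2,4,4,2,3,2,3,4,2,2],[3,2,2,1,2,4,1,4,4,1,2,3],[4,4,3,2,3,1,0,3,1,2,3,4],[0,0,3,3,0,4,2,4,0,4,4,2],[1,4,3,3,0,1,4,2,2,3,1,0],[3,3,3,2,2,0,3,4,0,4,4,3],[0,4,1,2,0,2,0,3,2,1,2,2],[2,3,1,3,3,4,4,3,0,4,4,2]]]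
theorem hM : (arP 5).mOk 12 Ms = true := by decide +kernel
instance : Fact (Nat.Prime 5) := ⟨by norm_num⟩
theorem pg {X : Type u} [Group X] (hX : Mdl X 3 Rf 62400) (N : Nat) : ∃ (H : Type) (_ : Group H) (_ : Finite H), N < Nat.card H ∧
      (∀ p : ℕ, p.Prime → (p ∣ Nat.card X ↔ p ∣ Nat.card H)) ∧ ∀ p q : ℕ, p.Prime → q.Prime → p ≠ q →
        ((∃ g : X, orderOf g = p * q) ↔ ∃ x : H, orderOf x = p * q) := by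
  have K : (arP 5).Ok (Nat.cast : Nat → ZMod 5) := arP_ok 5 (by norm_num)
  have I := ixFin 12
  have := M0.fin
  obtain ⟨ρ, mo⟩ := M0.mrep pr (M0.sat sb0) K I hM (by decide +kernel) (by decide +kernel)
  obtain ⟨e⟩ := iso hX
  refine pg_same (by norm_num) (Mo.ex ρ 5) (by rw [M0.card]; norm_num) (fun g h1 h2 => ?_) e N
  have h3 := prime_mem (e := 6) (ps := [2, 3, 5, 13]) h1 (by norm_num) ((M0.card ▸ orderOf_dvd_natCard g).trans (by norm_num))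
  simp only [List.mem_cons, List.not_mem_nil, or_false] at h3
  rcases h3 with h | h | h | h
  · exact .inr (by rw [h]; exact ⟨_, M0.ordN [2,4,2,4,0,4,1,4,0] (by decide +kernel)⟩)
  · exact .inr (by rw [h]; exact ⟨_, M0.ordN [2,1,4,2] (by decide +kernel)⟩)
  · exact .inl h
  · exact absurd h2 (fpf_cyc (by norm_num) (by rw [M0.card]; norm_num) (M0.ordN _ (by decide +kernel)) (K.fpf I hM mo [4,0,2] 6 7 8 (by decide +kernel)) h)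

end CfsgH7.U34.Sp

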